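import Cfsg.Agent.LieClassical.SLGen
import Cfsg.Agent.ClassicalGeometry.AutPSL.Root

set_option autoImplicit false

/-!
# Subgroups of `SL ι F` containing all transvections with a given axis

`axisSpace H` is the set of functionals `ρ` such that all transvections `1 + w ρᵀ` (`ρ(w) = 0`) are in `H`.
It is a subspace, invariant under `H`, and if it is everything then `H = SL ι F`.
-/

namespace Cfsg.Agent.H106.SLAxis

open Matrix Cfsg.Agent.ClassicalGeometry.AutPSL.Root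

variable {ι F : Type*} [Fintype ι] [DecidableEq ι] [Field F]

theorem dot_of_vecMul (g : Matrix.SpecialLinearGroup ι F) {a φ ψ : ι → F} (h : φ ⬝ᵥ a = 0)
    (hψ : ψ ᵥ* (g : Matrix ι ι F) = φ) : ψ ⬝ᵥ ((g : Matrix ι ι F) *ᵥ a) = 0 := by
  rw [Matrix.dotProduct_mulVec, hψ, h]

/-- conjugates of transvections -/
theorem conj_tr (g : Matrix.SpecialLinearGroup ι F) (a φ ψ : ι → F) (h : φ ⬝ᵥ a = 0)
    (hψ : ψ ᵥ* (g : Matrix ι ι F) = φ) :
    g * tr a φ h * g⁻¹ = tr ((g : Matrix ι ι F) *ᵥ a) ψ (dot_of_vecMul g h hψ) := by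
  rw [mul_inv_eq_iff_eq_mul]
  apply Subtype.ext
  rw [Matrix.SpecialLinearGroup.coe_mul, Matrix.SpecialLinearGroup.coe_mul, coe_tr, coe_tr,
    mul_add, add_mul, mul_one, one_mul]
  congr 1
  rw [← hψ, Matrix.mul_vecMulVec, Matrix.vecMulVec_mul]

theorem tr_congr {a b φ ψ : ι → F} (hab : a = b) (hφψ : φ = ψ) (h : φ ⬝ᵥ a = 0) :
    tr a φ h = tr b ψ (hab ▸ hφψ ▸ h) := by
  subst hab
  subst hφψ
  rfl

theorem tr_zero_right (a : ι → F) (h : (0 : ι → F) ⬝ᵥ a = 0) : tr a 0 h = 1 := by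
  apply Subtype.ext
  rw [coe_tr, vecMulVec_zero, add_zero]
  rfl

theorem tr_zero_left (φ : ι → F) (h : φ ⬝ᵥ 0 = 0) : tr 0 φ h = 1 := by
  apply Subtype.ext
  rw [coe_tr, zero_vecMulVec, add_zero]
  rfl

theorem tr_smul_right (c : F) (a φ : ι → F) (h : (c • φ) ⬝ᵥ a = 0) (h' : φ ⬝ᵥ (c • a) = 0) :
    tr a (c • φ) h = tr (c • a) φ h' := by
  apply Subtype.ext
  rw [coe_tr, coe_tr, vecMulVec_smul, smul_vecMulVec]

/-- the functionals `ρ` such that all transvections with axis `ker ρ` are in `H` -/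
def axisSpace (H : Subgroup (Matrix.SpecialLinearGroup ι F)) : Submodule F (ι → F) where
  carrier := {ρ | ∀ w (h : ρ ⬝ᵥ w = 0), tr w ρ h ∈ H}
  zero_mem' := by
    intro w h
    rw [tr_zero_right]
    exact H.one_mem
  smul_mem' := by
    intro c ρ hρ w h
    have h' : ρ ⬝ᵥ (c • w) = 0 := by
      rw [dotProduct_smul, ← smul_dotProduct]
      exact h
    rw [tr_smul_right c w ρ h h']
    exact hρ _ h'
  add_mem' := by
    intro ρ ρ' hρ hρ' w h
    by_cases hw : ∃ w', ρ' ⬝ᵥ w' = 0 ∧ ρ ⬝ᵥ w' ≠ 0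
    · obtain ⟨w', h1, h2⟩ := hw
      -- normalize
      let w'' : ι → F := (-(ρ ⬝ᵥ w')⁻¹) • w'
      have h3 : ρ' ⬝ᵥ w'' = 0 := by
        change ρ' ⬝ᵥ ((-(ρ ⬝ᵥ w')⁻¹) • w') = 0
        rw [dotProduct_smul, h1, smul_zero]
      have h4 : ρ ⬝ᵥ w'' = -1 := by
        change ρ ⬝ᵥ ((-(ρ ⬝ᵥ w')⁻¹) • w') = -1
        rw [dotProduct_smul, smul_eq_mul, neg_mul, inv_mul_cancel₀ h2]
      let g := tr w'' ρ' h3
      have hg : g ∈ H := hρ' _ h3
      have h5 : (ρ + ρ') ᵥ* (g : Matrix ι ι F) = ρ := by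
        change (ρ + ρ') ᵥ* (1 + vecMulVec w'' ρ') = ρ
        rw [vecMul_add, vecMul_one, vecMul_vecMulVec, add_dotProduct, h3, h4]
        simp
      have h6 : ρ ⬝ᵥ (((g⁻¹ : Matrix.SpecialLinearGroup ι F) : Matrix ι ι F) *ᵥ w) = 0 := by
        rw [← h5, ← dotProduct_mulVec, mulVec_mulVec, ← Matrix.SpecialLinearGroup.coe_mul,
          mul_inv_cancel, Matrix.SpecialLinearGroup.coe_one, one_mulVec, h]
      have h7 := conj_tr g (((g⁻¹ : Matrix.SpecialLinearGroup ι F) : Matrix ι ι F) *ᵥ w) ρ (ρ + ρ') h6 h5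
      have h8 : (g : Matrix ι ι F) *ᵥ (((g⁻¹ : Matrix.SpecialLinearGroup ι F) : Matrix ι ι F) *ᵥ w) = w := by
        rw [mulVec_mulVec, ← Matrix.SpecialLinearGroup.coe_mul,
          mul_inv_cancel, Matrix.SpecialLinearGroup.coe_one, one_mulVec]
      have h9 : tr w (ρ + ρ') h = g * tr (((g⁻¹ : Matrix.SpecialLinearGroup ι F) : Matrix ι ι F) *ᵥ w) ρ h6 * g⁻¹ := by
        rw [h7]
        exact (tr_congr h8 rfl _).symm
      rw [h9]
      exact H.mul_mem (H.mul_mem hg (hρ _ h6)) (H.inv_mem hg)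
    · push Not at hw
      by_cases h1 : ρ' ⬝ᵥ w = 0
      · have h2 := hw w h1
        rw [← tr_mul_same_center w ρ ρ' h2 h1]
        exact H.mul_mem (hρ _ _) (hρ' _ _)
      · have h0 : ρ + ρ' = 0 := by
          rw [← dotProduct_eq_zero_iff]
          intro x
          have h2 : ρ' ⬝ᵥ (x - ((ρ' ⬝ᵥ x) * (ρ' ⬝ᵥ w)⁻¹) • w) = 0 := by
            rw [dotProduct_sub, dotProduct_smul, smul_eq_mul, mul_assoc, inv_mul_cancel₀ h1, mul_one,
              sub_self]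
          have h3 := hw _ h2
          rw [dotProduct_sub, dotProduct_smul, smul_eq_mul] at h3
          rw [add_dotProduct] at h
          have h4 : ρ ⬝ᵥ w = - (ρ' ⬝ᵥ w) := eq_neg_of_add_eq_zero_left h
          rw [h4] at h3
          rw [add_dotProduct]
          have h5 : ρ' ⬝ᵥ x * (ρ' ⬝ᵥ w)⁻¹ * -(ρ' ⬝ᵥ w) = -(ρ' ⬝ᵥ x) := by
            rw [mul_neg, mul_assoc, inv_mul_cancel₀ h1, mul_one]
          rw [h5, sub_neg_eq_add] at h3
          exact h3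
        rw [tr_congr rfl h0 h, tr_zero_right]
        exact H.one_mem

theorem mem_axisSpace {H : Subgroup (Matrix.SpecialLinearGroup ι F)} {ρ : ι → F} :
    ρ ∈ axisSpace H ↔ ∀ w (h : ρ ⬝ᵥ w = 0), tr w ρ h ∈ H := Iff.rfl

theorem vecMul_mem {H : Subgroup (Matrix.SpecialLinearGroup ι F)} {ρ : ι → F} (hρ : ρ ∈ axisSpace H)
    {g : Matrix.SpecialLinearGroup ι F} (hg : g ∈ H) : ρ ᵥ* (g : Matrix ι ι F) ∈ axisSpace H := by
  intro w h
  have h1 : ρ ⬝ᵥ ((g : Matrix ι ι F) *ᵥ w) = 0 := by rw [dotProduct_mulVec, h]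
  have h2 : (ρ ᵥ* (g : Matrix ι ι F)) ᵥ* ((g⁻¹ : Matrix.SpecialLinearGroup ι F) : Matrix ι ι F) = ρ := by
    rw [vecMul_vecMul, ← Matrix.SpecialLinearGroup.coe_mul, mul_inv_cancel,
      Matrix.SpecialLinearGroup.coe_one, vecMul_one]
  have h3 := conj_tr g⁻¹ ((g : Matrix ι ι F) *ᵥ w) ρ (ρ ᵥ* (g : Matrix ι ι F)) h1 h2
  have h4 : ((g⁻¹ : Matrix.SpecialLinearGroup ι F) : Matrix ι ι F) *ᵥ ((g : Matrix ι ι F) *ᵥ w) = w := by
    rw [mulVec_mulVec, ← Matrix.SpecialLinearGroup.coe_mul, inv_mul_cancel,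
      Matrix.SpecialLinearGroup.coe_one, one_mulVec]
  have h5 : tr w (ρ ᵥ* (g : Matrix ι ι F)) h = g⁻¹ * tr ((g : Matrix ι ι F) *ᵥ w) ρ h1 * g⁻¹⁻¹ := by
    rw [h3]
    exact (tr_congr h4 rfl _).symm
  rw [h5]
  exact H.mul_mem (H.mul_mem (H.inv_mem hg) (hρ _ h1)) (H.inv_mem (H.inv_mem hg))

/-- If `H` contains all transvections of all axes then `H = SL ι F`. -/
theorem eq_top {H : Subgroup (Matrix.SpecialLinearGroup ι F)} (h : axisSpace H = ⊤) : H = ⊤ := by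
  rw [eq_top_iff, ← Cfsg.Agent.LieClassical.SLGen.closure_transvections, Subgroup.closure_le]
  rintro _ ⟨i, j, hij, c, rfl⟩
  rw [transvection_eq_tr]
  have h1 : Pi.single j 1 ∈ axisSpace H := by
    rw [h]
    exact Submodule.mem_top
  exact h1 _ _

end Cfsg.Agent.H106.SLAxis
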